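import Cfsg.Agent.H440.TwoGen.Basic

/-!
# Almost simple groups with a cyclic group of field automorphisms: two-generation (helper491)

`main`: `T` is a normal subgroup of `G` with trivial centraliser, `e : T ≃* S`, every automorphism of `S` is inner times
`f σ`, `σ` in the cyclic group `A` of odd order, the torus `d : D → S`, `D` cyclic, is stable under `f σ`, the involution
`w` is fixed by `f σ` and inverts the torus.  If the torus, `w` and the commutator of `u` and a generator of the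
torus generate `S` (in the weak form `h1`, `h2`), then `G` is generated by a generator of the torus and `u * w * y`.
-/

set_option autoImplicit false

namespace Cfsg.Agent.H491.Gen.Cyc

open Subgroup Cfsg.Agent.H440.TwoGen

variable {G : Type*} [Group G] {T : Subgroup G} {S : Type*} [Group S] {A : Type*} [Group A]

/-- `x` acts on `T` as the automorphism `ψ` of `S`. -/
def Act (e : ↥T ≃* S) (x : G) (ψ : MulAut S) : Prop :=
  ∀ s : S, x * e.symm s * x⁻¹ = e.symm (ψ s)

theorem Act.mul {e : ↥T ≃* S} {x y : G} {ψ χ : MulAut S} (h : Act e x ψ) (h' : Act e y χ) :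
    Act e (x * y) (ψ * χ) := by
  intro s
  rw [MulAut.mul_apply, ← h, ← h', mul_inv_rev]
  simp only [mul_assoc]

theorem Act.one (e : ↥T ≃* S) : Act e 1 1 := by
  intro s
  rw [one_mul, inv_one, mul_one]
  rfl

theorem Act.inv {e : ↥T ≃* S} {x : G} {ψ : MulAut S} (h : Act e x ψ) : Act e x⁻¹ ψ⁻¹ := by
  intro s
  have h1 := h (ψ⁻¹ s)
  rw [MulAut.apply_inv_self] at h1
  rw [← h1]
  group

theorem Act.pow {e : ↥T ≃* S} {x : G} {ψ : MulAut S} (h : Act e x ψ) (n : ℕ) : Act e (x ^ n) (ψ ^ n) := by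
  induction n with
  | zero => rw [pow_zero, pow_zero]; exact Act.one e
  | succ n ih => rw [pow_succ, pow_succ]; exact ih.mul h

theorem act_conj (e : ↥T ≃* S) (g : S) : Act e (e.symm g : G) (MulAut.conj g) := by
  intro s
  rw [MulAut.conj_apply, map_mul, map_mul, map_inv]
  rfl

/-- elements acting trivially -/
theorem Act.eq_one (hC : centralizer (T : Set G) = ⊥) {e : ↥T ≃* S} {x : G} (h : Act e x 1) : x = 1 := by
  have h1 : x ∈ centralizer (T : Set G) := by
    rw [mem_centralizer_iff]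
    intro y hy
    have h2 := h (e ⟨y, hy⟩)
    rw [MulAut.one_apply, e.symm_apply_apply, mul_inv_eq_iff_eq_mul] at h2
    exact h2.symm
  rw [hC] at h1
  exact h1

theorem exists_act (hT : T.Normal) (e : ↥T ≃* S) (x : G) : ∃ ψ : MulAut S, Act e x ψ := by
  refine ⟨(e.symm.trans (MulAut.conjNormal (H := T) x)).trans e, ?_⟩
  intro s
  have h1 : e.symm (((e.symm.trans (MulAut.conjNormal (H := T) x)).trans e) s) =
      MulAut.conjNormal (H := T) x (e.symm s) := by
    show e.symm (e (MulAut.conjNormal (H := T) x (e.symm s))) = _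
    rw [e.symm_apply_apply]
  rw [h1, MulAut.conjNormal_apply]

/-- A normal subgroup with trivial centraliser and a cyclic group of field automorphisms. -/
theorem exists_gen (hT : T.Normal) (hC : centralizer (T : Set G) = ⊥) (e : ↥T ≃* S) [IsCyclic A]
    (f : A →* MulAut S) (hform : ∀ ψ : MulAut S, ∃ (g : S) (σ : A), ψ = MulAut.conj g * f σ) :
    ∃ (y : G) (σ : A), Act e y (f σ) ∧ ∀ M : Subgroup G, T ≤ M → y ∈ M → M = ⊤ := by
  -- the group of field automorphisms induced by `G`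
  let B : Subgroup A :=
    { carrier := {σ | ∃ x : G, Act e x (f σ)}
      one_mem' := ⟨1, by rw [map_one]; exact Act.one e⟩
      mul_mem' := by
        rintro σ τ ⟨x, hx⟩ ⟨y, hy⟩
        exact ⟨x * y, by rw [map_mul]; exact hx.mul hy⟩
      inv_mem' := by
        rintro σ ⟨x, hx⟩
        exact ⟨x⁻¹, by rw [map_inv]; exact hx.inv⟩ }
  have hB : IsCyclic ↥B := inferInstance
  obtain ⟨⟨σ, y, hy⟩, hσ⟩ := hB.exists_generator
  refine ⟨y, σ, hy, ?_⟩
  intro M hTM hyM
  rw [eq_top_iff]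
  intro x _
  obtain ⟨ψ, hψ⟩ := exists_act hT e x
  obtain ⟨g, τ, hg⟩ := hform ψ
  have h1 : Act e ((e.symm g : G)⁻¹ * x) (f τ) := by
    have h2 := (act_conj e g).inv.mul hψ
    rwa [hg, inv_mul_cancel_left] at h2
  have hτ : τ ∈ B := ⟨_, h1⟩
  obtain ⟨n, hn⟩ := hσ ⟨τ, hτ⟩
  have hn' : σ ^ n = τ := by
    have := congrArg Subtype.val hn
    simpa using this
  have hyn : Act e (y ^ n) (f τ) := by
    rw [← hn', map_zpow]
    cases n with
    | ofNat n => simpa using hy.pow n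
    | negSucc n =>
      rw [zpow_negSucc, zpow_negSucc]
      exact (hy.pow (n + 1)).inv
  have h2 : Act e ((e.symm g : G)⁻¹ * x * (y ^ n)⁻¹) 1 := by
    have h3 := h1.mul hyn.inv
    rwa [mul_inv_cancel] at h3
  have h3 := h2.eq_one hC
  have h4 : x = (e.symm g : G) * y ^ n := by
    rw [mul_inv_eq_one, inv_mul_eq_iff_eq_mul] at h3
    exact h3
  rw [h4]
  exact M.mul_mem (hTM (e.symm g).2) (M.zpow_mem hyM n)

variable {D : Type*} [Group D]

/-- **Two-generation** -/
theorem main (hT : T.Normal) (hC : centralizer (T : Set G) = ⊥) (e : ↥T ≃* S) [IsCyclic A] [Finite A]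
    (hA : Odd (Nat.card A)) (f : A →* MulAut S)
    (hform : ∀ ψ : MulAut S, ∃ (g : S) (σ : A), ψ = MulAut.conj g * f σ)
    (d : D →* S) {κ : D} (hκ : ∀ x : D, x ∈ zpowers κ)
    (hd : ∀ σ : A, ∃ κ' : D, (∀ x : D, x ∈ zpowers κ') ∧ f σ (d κ) = d κ')
    {w u : S} (hw : ∀ σ, f σ w = w) (hw2 : w * w = 1) (hwd : ∀ x, w * d x * w⁻¹ = (d x)⁻¹)
    (h1 : ∀ M : Subgroup S, (∀ x, d x ∈ M) → ∀ x : D, (∀ z : D, z ∈ zpowers x) →
      u * (d x)⁻¹ * u⁻¹ * d x ∈ M → u ∈ M ∧ (w ∈ M → M = ⊤)) : TwoGen G := by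
  obtain ⟨y, σ, hy, hgen⟩ := exists_gen hT hC e f hform
  obtain ⟨κ', hκ', hdκ⟩ := hd σ
  let ι : S →* G := T.subtype.comp e.symm.toMonoidHom
  have hι : ∀ s, ι s = (e.symm s : G) := fun s => rfl
  have hy' : ∀ s, y * ι s * y⁻¹ = ι (f σ s) := fun s => hy s
  refine ⟨ι (d κ), ι u * (ι w * y), ?_⟩
  set M : Subgroup G := closure {ι (d κ), ι u * (ι w * y)} with hM
  have ha : ι (d κ) ∈ M := subset_closure (by simp)
  have hb : ι u * (ι w * y) ∈ M := subset_closure (by simp)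
  let M' : Subgroup S := M.comap ι
  have hM' : ∀ s, s ∈ M' ↔ ι s ∈ M := fun s => Iff.rfl
  have hdM : ∀ x, d x ∈ M' := by
    intro x
    obtain ⟨n, rfl⟩ := hκ x
    rw [hM']
    show ι (d (κ ^ n)) ∈ M
    rw [map_zpow, map_zpow]
    exact M.zpow_mem ha n
  have hc : u * (d κ')⁻¹ * u⁻¹ * d κ' ∈ M' := by
    have h2 : (ι u * (ι w * y)) * ι (d κ) * (ι u * (ι w * y))⁻¹ * ι (d κ') ∈ M :=
      M.mul_mem (M.mul_mem (M.mul_mem hb ha) (M.inv_mem hb)) (hdM κ')
    have h3 : (ι u * (ι w * y)) * ι (d κ) * (ι u * (ι w * y))⁻¹ * ι (d κ') =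
        ι (u * (d κ')⁻¹ * u⁻¹ * d κ') := by
      calc (ι u * (ι w * y)) * ι (d κ) * (ι u * (ι w * y))⁻¹ * ι (d κ')
          = ι u * (ι w * (y * ι (d κ) * y⁻¹) * (ι w)⁻¹) * (ι u)⁻¹ * ι (d κ') := by group
        _ = ι u * (ι w * ι (d κ') * (ι w)⁻¹) * (ι u)⁻¹ * ι (d κ') := by rw [hy', hdκ]
        _ = ι (u * (w * d κ' * w⁻¹) * u⁻¹ * d κ') := by simp only [map_mul, map_inv]
        _ = ι (u * (d κ')⁻¹ * u⁻¹ * d κ') := by rw [hwd]
    rw [hM', ← h3]
    exact h2
  obtain ⟨hu, hwt⟩ := h1 M' hdM κ' hκ' hc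
  have hwy : ι w * y ∈ M := by
    have h3 : (ι u)⁻¹ * (ι u * (ι w * y)) = ι w * y := by group
    rw [← h3]
    exact M.mul_mem (M.inv_mem hu) hb
  -- the odd power of `w y`
  have hcomm : Commute (ι w) y := by
    have h2 := hy' w
    rw [hw, mul_inv_eq_iff_eq_mul] at h2
    exact h2.symm
  have hord : y ^ orderOf σ = 1 := by
    apply Act.eq_one hC (e := e)
    have h2 := hy.pow (orderOf σ)
    rwa [← map_pow, pow_orderOf_eq_one, map_one] at h2
  have hodd : Odd (orderOf σ) := by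
    obtain ⟨c, hc⟩ := orderOf_dvd_natCard σ
    rw [hc] at hA
    exact (Nat.odd_mul.1 hA).1
  have hwM : ι w ∈ M := by
    have h2 := M.pow_mem hwy (orderOf σ)
    rw [hcomm.mul_pow, hord, mul_one] at h2
    obtain ⟨k, hk⟩ := hodd
    have h3 : (ι w) ^ 2 = 1 := by rw [← map_pow, pow_two, hw2, map_one]
    rwa [hk, pow_succ, pow_mul, h3, one_pow, one_mul] at h2
  have htop := hwt hwM
  have hyM : y ∈ M := by
    have h2 := M.mul_mem (M.inv_mem hwM) hwy
    rwa [inv_mul_cancel_left] at h2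
  refine hgen M ?_ hyM
  intro t ht
  have h2 : e ⟨t, ht⟩ ∈ M' := by rw [htop]; exact mem_top _
  rw [hM', hι, e.symm_apply_apply] at h2
  exact h2

end Cfsg.Agent.H491.Gen.Cyc
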