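import Cfsg.Agent.H491.Gen.Sz
import Cfsg.Agent.H71.FldAut
import Cfsg.Agent.ChevalleyStructure.Ree.Perfect

/-!
# Two-generation of the almost simple groups with socle `²G₂(q)` (helper491)
-/

set_option autoImplicit false

namespace Cfsg.Agent.H491.Gen.Ree

open Subgroup Cfsg.Agent.H440.TwoGen Cfsg.Agent.LieRecognition Cfsg.Agent.ChevalleyStructure.Ree
  Cfsg.Agent.ChevalleyStructure.Ree.Normal Cfsg.Lie

variable {J : Type*} [Group J] {K : Type*} [Field K]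

/-- The generation lemma. -/
theorem gen [Fintype K] {m : ℕ} (hm : 1 ≤ m) (hK : Fintype.card K = 3 ^ (2 * m + 1)) {U : K → K → K → J}
    {h : Kˣ → J} {n : J} (D : ReeAbs.Data m U h n) (M : Subgroup J) (hM : ∀ k, h k ∈ M) {k : Kˣ} (hk : k ≠ 1)
    (hh : U 1 0 0 * (h k)⁻¹ * (U 1 0 0)⁻¹ * h k ∈ M) : U 1 0 0 ∈ M ∧ (n ∈ M → M = ⊤) := by
  have hch : CharP K 3 := ReeAbs.charP_three hK
  have hp3 : Fact (Nat.Prime 3) := ⟨Nat.prime_three⟩
  have hcard : 3 < Fintype.card K := by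
    rw [hK]
    calc 3 = 3 ^ 1 := rfl
      _ < 3 ^ (2 * m + 1) := Nat.pow_lt_pow_right (by decide) (by omega)
  obtain ⟨γ, hγ⟩ := Perfect.exists_unit_sq_ne_one hcard
  have h3' : (3 : K) = 0 := by exact_mod_cast CharP.cast_eq_zero K 3
  -- the field endomorphism
  set θ : K →+* K := iterateFrobenius K 3 (m + 1) with hθ
  have hθd : ∀ x : K, x ^ 3 ^ (m + 1) = θ x := fun x => rfl
  have hθθ : ∀ x : K, θ (θ x) = x ^ 3 := by
    intro x
    rw [← hθd, ← hθd, ← pow_mul, ← pow_add, show m + 1 + (m + 1) = (2 * m + 1) + 1 by ring, pow_succ, ← hK, pow_mul,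
      FiniteField.pow_card]
  have hθs : ∀ x : K, x ≠ 0 → ∃ l : Kˣ, θ (l : K) = x := by
    intro x hx
    obtain ⟨y, hy⟩ := (Finite.injective_iff_surjective.1 θ.injective) x
    have hy0 : y ≠ 0 := by rintro rfl; rw [map_zero] at hy; exact hx hy.symm
    exact ⟨Units.mk0 y hy0, hy⟩
  have U_mul : ∀ t u v t' u' v', U t u v * U t' u' v' =
      U (t + t') (u + u' - t * θ t') (v + v' - u * t' - t ^ 2 * θ t' + t * t' * θ t') := D.U_mul
  have hU0 : U 0 0 0 = 1 := by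
    have h1 := U_mul 0 0 0 0 0 0
    simp only [map_zero, mul_zero, sub_zero, add_zero] at h1
    exact mul_eq_left.mp h1
  have h_one : h 1 = 1 := by
    have h1 := D.h_mul 1 1
    rw [mul_one] at h1
    exact mul_eq_left.mp h1.symm
  have h_inv : ∀ a, (h a)⁻¹ = h a⁻¹ := by
    intro a
    rw [inv_eq_iff_mul_eq_one, ← D.h_mul, mul_inv_cancel, h_one]
  have h_conj : ∀ (l : Kˣ) (t u v : K), h l * U t u v * (h l)⁻¹ =
      U (θ l * t) (θ l * (l : K) ^ 3 * u) ((θ l) ^ 2 * (l : K) ^ 3 * v) := by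
    intro l t u v
    have e1 : (l : K) ^ (3 ^ (m + 1) + 3) = θ l * (l : K) ^ 3 := by
      rw [pow_add (l : K) (3 ^ (m + 1)) 3, hθd]
    have e2 : (l : K) ^ (2 * 3 ^ (m + 1) + 3) = (θ l) ^ 2 * (l : K) ^ 3 := by
      rw [pow_add (l : K) (2 * 3 ^ (m + 1)) 3, mul_comm 2, pow_mul, hθd]
    rw [D.h_U, mul_inv_cancel_right, e1, e2, hθd]
  have hconj : ∀ (l : Kˣ) (t u v : K), U t u v ∈ M →
      U (θ l * t) (θ l * (l : K) ^ 3 * u) ((θ l) ^ 2 * (l : K) ^ 3 * v) ∈ M := by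
    intro l t u v h1
    rw [← h_conj]
    exact M.mul_mem (M.mul_mem (hM l) h1) (M.inv_mem (hM l))
  -- inverse
  have hinv : ∀ t u v : K, ∃ u' v', (U t u v)⁻¹ = U (-t) u' v' := by
    intro t u v
    refine ⟨-u + t * θ (-t), -(v - u * (-t) - t ^ 2 * θ (-t) + t * (-t) * θ (-t)), ?_⟩
    rw [inv_eq_iff_mul_eq_one, U_mul, ← hU0]
    congr 1 <;> ring
  -- a unipotent element with nonzero first coordinate
  obtain ⟨c, c2, c3, hc, hcM⟩ : ∃ c c2 c3 : K, c ≠ 0 ∧ U c c2 c3 ∈ M := by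
    have h2 : U 1 0 0 * (h k)⁻¹ * (U 1 0 0)⁻¹ * h k = U 1 0 0 * (h k⁻¹ * (U 1 0 0)⁻¹ * (h k⁻¹)⁻¹) := by
      rw [h_inv, h_inv, inv_inv]
      group
    obtain ⟨u', v', h5⟩ := hinv 1 0 0
    rw [h2, h5, h_conj, U_mul] at hh
    refine ⟨_, _, _, ?_, hh⟩
    intro h0
    have h6 : θ ((k⁻¹ : Kˣ) : K) = 1 := by linear_combination -h0
    have h7 : ((k⁻¹ : Kˣ) : K) = 1 := θ.injective (by rw [h6, map_one])
    apply hk
    rw [← inv_inv k, show k⁻¹ = 1 from Units.ext (h7.trans Units.val_one.symm), inv_one]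
  -- all first coordinates
  have s1 : ∀ t : K, ∃ u v : K, U t u v ∈ M := by
    intro t
    by_cases ht : t = 0
    · exact ⟨0, 0, by rw [ht, hU0]; exact M.one_mem⟩
    · obtain ⟨l, hl⟩ := hθs (t / c) (div_ne_zero ht hc)
      have h1 := hconj l c c2 c3 hcM
      rw [hl, div_mul_cancel₀ t hc] at h1
      exact ⟨_, _, h1⟩
  -- commutators: second coordinates
  have key : ∀ t u v t1 u1 v1 : K, U t u v ∈ M → U t1 u1 v1 ∈ M →
      ∃ w, U 0 (t1 * θ t - t * θ t1) w ∈ M := by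
    intro t u v t1 u1 v1 h1 h2
    have h3 : U t u v * U t1 u1 v1 =
        U t1 u1 v1 * U t u v * U 0 (t1 * θ t - t * θ t1)
          ((v + v1 - u * t1 - t ^ 2 * θ t1 + t * t1 * θ t1) -
            (v1 + v - u1 * t - t1 ^ 2 * θ t + t1 * t * θ t)) := by
      rw [U_mul, U_mul, U_mul, map_zero]
      congr 1 <;> ring
    have h4 := M.mul_mem (M.inv_mem (M.mul_mem h2 h1)) (M.mul_mem h1 h2)
    rw [h3, inv_mul_cancel_left] at h4
    exact ⟨_, h4⟩
  -- there is a nonzero one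
  obtain ⟨d, d2, hd, hdM⟩ : ∃ d d2 : K, d ≠ 0 ∧ U 0 d d2 ∈ M := by
    obtain ⟨u, v, h1⟩ := s1 1
    obtain ⟨u1, v1, h2⟩ := s1 (γ : K)
    obtain ⟨w, hw⟩ := key _ _ _ _ _ _ h1 h2
    refine ⟨_, w, ?_, hw⟩
    intro h0
    rw [map_one, mul_one, one_mul, sub_eq_zero] at h0
    -- γ = θ γ, so γ = γ^3
    have h5 : (γ : K) ^ 3 = γ := by
      have h6 := hθθ (γ : K)
      rw [← h0, ← h0] at h6
      exact h6.symm
    apply hγ
    apply Units.ext
    have h7 : (γ : K) ≠ 0 := γ.ne_zero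
    apply mul_left_cancel₀ h7
    rw [Units.val_pow_eq_pow_val, Units.val_one, mul_one, ← pow_succ']
    exact h5
  -- squares
  have hsq : ∀ (b u w : K), U 0 u w ∈ M → ∃ w', U 0 (b ^ 2 * u) w' ∈ M := by
    intro b u w hu
    by_cases hb0 : b = 0
    · refine ⟨0, ?_⟩
      rw [hb0, zero_pow (by norm_num), zero_mul, hU0]
      exact M.one_mem
    · -- `l` with `θ l = θ b / b`
      have hθb : θ b ≠ 0 := fun h0 => hb0 ((map_eq_zero θ).1 h0)
      obtain ⟨l, hl⟩ := hθs (θ b / b) (div_ne_zero hθb hb0)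
      have h2 : (l : K) ^ 3 = b ^ 3 / θ b := by
        rw [← hθθ, hl, map_div₀, hθθ]
      have h3 : θ l * (l : K) ^ 3 = b ^ 2 := by
        rw [hl, h2]
        field_simp
      have h4 := hconj l 0 u w hu
      rw [mul_zero, h3] at h4
      exact ⟨_, h4⟩
  have U0 : ∀ u v u' v' : K, U 0 u v * U 0 u' v' = U 0 (u + u') (v + v') := by
    intro u v u' v'
    rw [U_mul, map_zero]
    congr 1 <;> ring
  have s2 : ∀ u : K, ∃ v, U 0 u v ∈ M := by
    intro u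
    -- `u / d = x = (x+1)^2 - (x-1)^2` in characteristic 3
    set x := u / d with hx
    have hxd : x * d = u := div_mul_cancel₀ u hd
    obtain ⟨w1, h1⟩ := hsq (x + 1) d d2 hdM
    obtain ⟨w2, h2⟩ := hsq (x - 1) d d2 hdM
    have h4 := M.mul_mem h1 (M.inv_mem h2)
    have h5 : (U 0 ((x - 1) ^ 2 * d) w2)⁻¹ = U 0 (-((x - 1) ^ 2 * d)) (-w2) := by
      rw [inv_eq_iff_mul_eq_one, U0, add_neg_cancel, add_neg_cancel, hU0]
    rw [h5, U0] at h4
    have h6 : (x + 1) ^ 2 * d + -((x - 1) ^ 2 * d) = u := by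
      linear_combination x * d * h3' + hxd
    rw [h6] at h4
    exact ⟨_, h4⟩
  have s3 : ∀ v : K, U 0 0 v ∈ M := by
    intro v
    obtain ⟨u1, v1, h1⟩ := s1 1
    obtain ⟨v2, h2⟩ := s2 v
    have h4 : U 1 u1 v1 * U 0 v v2 = U 0 v v2 * U 1 u1 v1 * U 0 0 v := by
      rw [U_mul, U_mul, U_mul, map_zero, map_one]
      congr 1 <;> ring
    have h5 := M.mul_mem (M.inv_mem (M.mul_mem h2 h1)) (M.mul_mem h1 h2)
    rwa [h4, inv_mul_cancel_left] at h5
  have sAll : ∀ t u v : K, U t u v ∈ M := by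
    intro t u v
    obtain ⟨u1, v1, h1⟩ := s1 t
    obtain ⟨v2, h2⟩ := s2 (u - u1)
    have h4 := M.mul_mem (M.mul_mem h1 h2) (s3 (v - v1 - v2))
    rw [U_mul, U_mul, map_zero] at h4
    have e1 : t + 0 + 0 = t := by ring
    have e2 : u1 + (u - u1) - t * 0 + 0 - (t + 0) * 0 = u := by ring
    have e3 : v1 + v2 - u1 * 0 - t ^ 2 * 0 + t * 0 * 0 + (v - v1 - v2) -
        (u1 + (u - u1) - t * 0) * 0 - (t + 0) ^ 2 * 0 + (t + 0) * 0 * 0 = v := by ring
    rwa [e1, e2, e3] at h4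
  refine ⟨sAll _ _ _, fun hn => ?_⟩
  rw [eq_top_iff]
  intro g _
  rcases D.bruhat g with ⟨t, u, v, a, rfl⟩ | ⟨t, u, v, a, t', u', v', rfl⟩
  · exact M.mul_mem (sAll _ _ _) (hM _)
  · exact M.mul_mem (M.mul_mem (M.mul_mem (sAll _ _ _) (hM _)) hn) (sAll _ _ _)

/-- **Two-generation, socle `²G₂(q)`.** -/
theorem twoGen {G : Type*} [Group G] {T : Subgroup G} (hT : T.Normal) (hC : centralizer (T : Set G) = ⊥)
    [Fintype K] {m : ℕ} (hm : 1 ≤ m) (hK : Fintype.card K = 3 ^ (2 * m + 1))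
    (e : ↥T ≃* ↥(twistedG2 K (3 ^ m))) : TwoGen G := by
  obtain ⟨κ, hκ⟩ := IsCyclic.exists_generator (α := Kˣ)
  have hp3 : Fact (Nat.Prime 3) := ⟨Nat.prime_three⟩
  have hch : CharP K 3 := ReeAbs.charP_three hK
  have hfin : Finite (K ≃+* K) := Finite.of_injective (fun f : K ≃+* K => (f : K → K)) DFunLike.coe_injective
  have hcard : Nat.card (K ≃+* K) = 2 * m + 1 := Cfsg.Agent.Lib.FieldAutCard.card_ringAut (by omega) hK
  obtain ⟨τ, hτ⟩ := Cfsg.Agent.H967.CopMat.exists_ringAut 3 (2 * m + 1) hK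
  have hcyc : IsCyclic (K ≃+* K) := isCyclic_of_orderOf_eq_card τ (by rw [hτ, hcard])
  obtain ⟨θ, c⟩ := exists_ctx hK
  have D := Data.data c
  have R := Cfsg.Agent.H71.FldAut.reeFld c
  have hne : ∀ x : Kˣ, (∀ z : Kˣ, z ∈ zpowers x) → x ≠ 1 := by
    rintro x hx rfl
    have h1 : Nat.card Kˣ = 1 := by
      rw [Nat.card_eq_one_iff_unique]
      refine ⟨⟨fun a b => ?_⟩, ⟨1⟩⟩
      obtain ⟨i, rfl⟩ := hx a
      obtain ⟨j, rfl⟩ := hx b
      simp
    rw [Nat.card_units, Nat.card_eq_fintype_card, hK] at h1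
    have : 3 ^ 3 ≤ 3 ^ (2 * m + 1) := Nat.pow_le_pow_right (by norm_num) (by omega)
    omega
  let f : (K ≃+* K) →* MulAut ↥(twistedG2 K (3 ^ m)) :=
    { toFun := fun σ => S2127.fld σ (3 ^ m)
      map_one' := by
        have h1 := Cfsg.Agent.H71.FldAut.fldG_mul (1 : K ≃+* K) 1 (3 ^ m)
        rw [mul_one] at h1
        exact mul_eq_left.mp h1.symm
      map_mul' := fun σ ρ => Cfsg.Agent.H71.FldAut.fldG_mul σ ρ (3 ^ m) }
  have h_one : Data.T c 1 = 1 := by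
    have h1 := D.h_mul 1 1
    rw [mul_one] at h1
    exact mul_eq_left.mp h1.symm
  refine Cyc.main (A := K ≃+* K) (D := Kˣ) hT hC e (by rw [hcard]; exact ⟨m, rfl⟩) f
    (Cfsg.Agent.H71.FldAut.ree_aut hm hK) ⟨⟨Data.T c, h_one⟩, fun x y => D.h_mul x y⟩ hκ ?_
    (w := Data.N c) (u := Data.U K (3 ^ m) 1 0 0) (fun σ => R.onN σ) D.n_n ?_ ?_
  · intro σ
    exact ⟨Units.mapEquiv σ.toMulEquiv κ, Sz.mapUnits_generator _ hκ, R.onH σ κ⟩
  · intro x
    show Data.N c * Data.T c x * (Data.N c)⁻¹ = (Data.T c x)⁻¹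
    rw [D.n_h, mul_inv_cancel_right, eq_comm, inv_eq_iff_mul_eq_one, ← D.h_mul, mul_inv_cancel, h_one]
  · intro M hM x hx h
    exact gen hm hK D M hM (hne x hx) h

end Cfsg.Agent.H491.Gen.Ree
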